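import Cfsg.Agent.Lib.Fusion.Abelian

/-! Abelian `2`-groups with distinct invariants have no automorphisms of odd order. -/

set_option autoImplicit false

namespace CfsgLib.Fusion

open Subgroup Cfsg Cfsg.FusionSystem

section zmod

theorem zmod_two_torsion {a : ℕ} (ha : 1 ≤ a) (z : ZMod (2 ^ a)) (hz : 2 • z = 0) :
    z = 0 ∨ z = ((2 ^ (a - 1) : ℕ) : ZMod (2 ^ a)) := by
  haveI : NeZero (2 ^ a) := ⟨by positivity⟩
  have h1 : ((2 * z.val : ℕ) : ZMod (2 ^ a)) = 0 := by
    push_cast
    rw [ZMod.natCast_zmod_val]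
    simpa [two_nsmul, two_mul] using hz
  rw [ZMod.natCast_eq_zero_iff] at h1
  obtain ⟨c, hc⟩ := h1
  have h2 : 2 ^ a = 2 * 2 ^ (a - 1) := by
    rw [← pow_succ']
    congr 1
    omega
  have h3 : z.val = 2 ^ (a - 1) * c := by
    exact Nat.eq_of_mul_eq_mul_left (by norm_num : 0 < 2) (hc.trans (by rw [h2, mul_assoc]))
  have hlt : z.val < 2 ^ a := ZMod.val_lt z
  have hpos : 0 < 2 ^ (a - 1) := by positivity
  have hc2 : c < 2 := by
    by_contra h
    push Not at h
    have : 2 ^ (a - 1) * 2 ≤ 2 ^ (a - 1) * c := Nat.mul_le_mul_left _ h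
    have hlt' := lt_of_lt_of_eq hlt h2
    omega
  interval_cases c
  · left
    rw [mul_zero] at h3
    exact (ZMod.val_eq_zero z).mp h3
  · right
    rw [mul_one] at h3
    rw [← h3, ZMod.natCast_zmod_val]

theorem pow_nsmul_eq_zero_of_le {a j : ℕ} (h : a ≤ j) (y : ZMod (2 ^ a)) : (2 ^ j : ℕ) • y = 0 := by
  obtain ⟨k, rfl⟩ := Nat.exists_eq_add_of_le h
  rw [pow_add, mul_nsmul]
  have : (2 ^ a : ℕ) • y = 0 := by
    rw [nsmul_eq_mul]
    have : ((2 ^ a : ℕ) : ZMod (2 ^ a)) = 0 := ZMod.natCast_self _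
    rw [this, zero_mul]
  rw [this, smul_zero]

theorem exists_pow_nsmul_of_torsion {a j : ℕ} (ha : 1 ≤ a) (hj : j + 1 ≤ a) (z : ZMod (2 ^ a))
    (hz : 2 • z = 0) : ∃ y : ZMod (2 ^ a), z = (2 ^ j : ℕ) • y := by
  rcases zmod_two_torsion ha z hz with h | h
  · exact ⟨0, by rw [h, smul_zero]⟩
  · refine ⟨((2 ^ (a - 1 - j) : ℕ) : ZMod (2 ^ a)), ?_⟩
    rw [h, nsmul_eq_mul, ← Nat.cast_mul, ← pow_add]
    congr 2
    omega

end zmod

section pi

variable {n : ℕ} {a : Fin n → ℕ}

/-- The height predicate. -/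
def InW (a : Fin n → ℕ) (j : ℕ) (x : (i : Fin n) → ZMod (2 ^ a i)) : Prop :=
  2 • x = 0 ∧ ∃ y : (i : Fin n) → ZMod (2 ^ a i), x = (2 ^ j : ℕ) • y

theorem inW_iff (ha1 : ∀ i, 1 ≤ a i) (j : ℕ) (z : (i : Fin n) → ZMod (2 ^ a i)) (h2 : 2 • z = 0) :
    InW a j z ↔ ∀ i, z i ≠ 0 → j + 1 ≤ a i := by
  constructor
  · rintro ⟨-, y, rfl⟩ i hi
    by_contra h
    push Not at h
    apply hi
    exact pow_nsmul_eq_zero_of_le (by omega) (y i)
  · intro h
    refine ⟨h2, ?_⟩
    have hc : ∀ i, ∃ y : ZMod (2 ^ a i), z i = (2 ^ j : ℕ) • y := by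
      intro i
      by_cases hi : z i = 0
      · exact ⟨0, by rw [hi, smul_zero]⟩
      · exact exists_pow_nsmul_of_torsion (ha1 i) (h i hi) (z i) (congrFun h2 i)
    choose y hy using hc
    exact ⟨y, funext hy⟩

theorem inW_jump (ha1 : ∀ i, 1 ≤ a i) (hinj : Function.Injective a) (j : ℕ)
    {x y : (i : Fin n) → ZMod (2 ^ a i)} (hx : InW a j x) (hy : InW a j y)
    (hx' : ¬ InW a (j + 1) x) (hy' : ¬ InW a (j + 1) y) : InW a (j + 1) (x + y) := by
  have hx2 := hx.1
  have hy2 := hy.1
  have hxy2 : 2 • (x + y) = 0 := by rw [smul_add, hx2, hy2, add_zero]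
  rw [inW_iff ha1 _ _ hx2] at hx hx'
  rw [inW_iff ha1 _ _ hy2] at hy hy'
  rw [inW_iff ha1 _ _ hxy2]
  push Not at hx' hy'
  obtain ⟨i, hi, hilt⟩ := hx'
  obtain ⟨k, hk, hklt⟩ := hy'
  have hai : a i = j + 1 := le_antisymm (by omega) (hx i hi)
  have hak : a k = j + 1 := le_antisymm (by omega) (hy k hk)
  have hik : i = k := hinj (hai.trans hak.symm)
  subst hik
  intro t ht
  by_cases hti : t = i
  · subst hti
    exfalso
    apply ht
    have h1 := (zmod_two_torsion (ha1 t) (x t) (congrFun hx2 t)).resolve_left hi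
    have h2 := (zmod_two_torsion (ha1 t) (y t) (congrFun hy2 t)).resolve_left hk
    show x t + y t = 0
    rw [h1, h2, ← Nat.cast_add, ← two_mul, ← pow_succ']
    have : a t - 1 + 1 = a t := by have := ha1 t; omega
    rw [this]
    exact ZMod.natCast_self _
  · have hne : a t ≠ j + 1 := fun h => hti (hinj (h.trans hai.symm))
    have hle : j + 1 ≤ a t := by
      by_cases hxt : x t = 0
      · have hyt : y t ≠ 0 := by
          intro hyt
          apply ht
          show x t + y t = 0
          rw [hxt, hyt, add_zero]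
        exact hy t hyt
      · exact hx t hxt
    omega

/-- The additive core of coprime action: if `β x = x + w`, with `w` an involution or zero fixed by `β`, and `β` has
odd order, then `w = 0`. -/
theorem eq_zero_of_iterate {V : Type*} [AddCommGroup V] (β : V ≃+ V) {m : ℕ} (hm : Odd m)
    (hβ : ∀ x, β^[m] x = x) {x w : V} (h2 : 2 • w = 0) (hw : β w = w) (hx : β x = x + w) : w = 0 := by
  have h1 : ∀ k : ℕ, β^[k] x = x + k • w := by
    intro k
    induction k with
    | zero => simp
    | succ k ih =>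
      rw [Function.iterate_succ_apply', ih, map_add, hx, map_nsmul, hw, succ_nsmul, add_assoc, add_comm w]
  have h3 := h1 m
  rw [hβ] at h3
  have h4 : m • w = 0 := by
    have := h3
    exact (add_eq_left.mp this.symm)
  obtain ⟨t, ht⟩ := hm
  rw [ht, add_smul, one_smul, mul_comm, mul_smul, h2, smul_zero, zero_add] at h4
  exact h4

variable (β : ((i : Fin n) → ZMod (2 ^ a i)) ≃+ ((i : Fin n) → ZMod (2 ^ a i)))

theorem inW_map {j : ℕ} {x : (i : Fin n) → ZMod (2 ^ a i)} (hx : InW a j x) : InW a j (β x) := by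
  obtain ⟨h2, y, rfl⟩ := hx
  exact ⟨by rw [← map_nsmul, h2, map_zero], β y, map_nsmul β _ _⟩

theorem fixed_of_inW (ha1 : ∀ i, 1 ≤ a i) (hinj : Function.Injective a) {m : ℕ} (hm : Odd m)
    (hβ : ∀ x, β^[m] x = x) (N : ℕ) (hN : ∀ i, a i ≤ N) :
    ∀ k j : ℕ, j + k = N → ∀ x, InW a j x → β x = x := by
  intro k
  induction k with
  | zero =>
    intro j hj x hx
    have : x = 0 := by
      have h2 := hx.1
      rw [inW_iff ha1 _ _ h2] at hx
      funext i
      by_contra h
      have h3 := hx i h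
      have h4 := hN i
      omega
    rw [this, map_zero]
  | succ k ih =>
    intro j hj x hx
    by_cases hx' : InW a (j + 1) x
    · exact ih (j + 1) (by omega) x hx'
    · have hβx : InW a j (β x) := inW_map β hx
      have hβx' : ¬ InW a (j + 1) (β x) := by
        intro h
        apply hx'
        have := inW_map β.symm h
        simpa using this
      have hw : InW a (j + 1) (x + β x) := inW_jump ha1 hinj j hx hβx hx' hβx'
      have hwf := ih (j + 1) (by omega) _ hw
      have hx2 := hx.1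
      have h1 : β x = x + (x + β x) := by
        have : x + x = 0 := by rw [← two_nsmul]; exact hx2
        rw [← add_assoc, this, zero_add]
      have h0 := eq_zero_of_iterate β hm hβ hw.1 hwf h1
      rw [h0, add_zero] at h1
      exact h1

theorem fixed_of_odd (ha1 : ∀ i, 1 ≤ a i) (hinj : Function.Injective a) {m : ℕ} (hm : Odd m)
    (hβ : ∀ x, β^[m] x = x) (x : (i : Fin n) → ZMod (2 ^ a i)) : β x = x := by
  set N := ∑ i, a i with hN
  have hle : ∀ i, a i ≤ N := fun i =>
    Finset.single_le_sum (f := a) (fun _ _ => Nat.zero_le _) (Finset.mem_univ i)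
  have hP0 : ∀ x : (i : Fin n) → ZMod (2 ^ a i), 2 • x = 0 → β x = x := by
    intro x hx
    refine fixed_of_inW β ha1 hinj hm hβ N hle N 0 (by omega) x ⟨hx, x, ?_⟩
    rw [pow_zero, one_smul]
  have hQ : ∀ k : ℕ, ∀ x : (i : Fin n) → ZMod (2 ^ a i), (2 ^ k : ℕ) • x = 0 → β x = x := by
    intro k
    induction k with
    | zero =>
      intro x hx
      rw [pow_zero, one_smul] at hx
      rw [hx, map_zero]
    | succ k ih =>
      intro x hx
      have h1 : β (2 • x) = 2 • x := ih _ (by rw [smul_smul, ← pow_succ]; exact hx)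
      have h2 : 2 • (β x - x) = 0 := by
        rw [smul_sub, ← map_nsmul, h1, sub_self]
      have h3 := eq_zero_of_iterate β hm hβ h2 (hP0 _ h2) (x := x) (by abel)
      exact sub_eq_zero.mp h3
  refine hQ N x ?_
  funext i
  exact pow_nsmul_eq_zero_of_le (hle i) (x i)

end pi

/-- **S5331**. -/
theorem inner_of_distinct_invariants {Ω : Type*} [Group Ω] {S : Subgroup Ω} [Finite S] (n : ℕ) (a : Fin n → ℕ)
    (ha : StrictMono a) (ha1 : ∀ i, 1 ≤ a i) (e : ↥S ≃* Multiplicative ((i : Fin n) → ZMod (2 ^ a i)))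
    (F : FusionSystem S) (hF : F.IsSaturated 2) (P : Subgroup Ω) :
    F.Hom P = (innerFusionSystem S).Hom P := by
  have hc : ∀ x y : S, x * y = y * x := fun x y => e.injective (by rw [map_mul, map_mul, mul_comm])
  have hab : ∀ x ∈ S, ∀ y ∈ S, x * y = y * x := fun x hx y hy =>
    congrArg Subtype.val (hc ⟨x, hx⟩ ⟨y, hy⟩)
  set N := ∑ i, a i with hN
  have hle : ∀ i, a i ≤ N := fun i =>
    Finset.single_le_sum (f := a) (fun _ _ => Nat.zero_le _) (Finset.mem_univ i)
  have hS : IsPGroup 2 S := by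
    intro x
    refine ⟨N, e.injective ?_⟩
    rw [map_pow, map_one]
    apply Multiplicative.toAdd.injective
    rw [toAdd_pow, toAdd_one]
    funext i
    exact pow_nsmul_eq_zero_of_le (hle i) _
  have hco := coprime_aut_abelian hS F hF hab
  have hodd : Odd (Nat.card (F.autGroup S)) := Nat.coprime_two_right.mp hco
  have htriv : ∀ α ∈ F.autGroup S, ∀ s : S, α s = s := by
    intro α hα s
    have hαm : α ^ Nat.card (F.autGroup S) = 1 := by
      have h1 : (⟨α, hα⟩ : F.autGroup S) ^ Nat.card (F.autGroup S) = 1 := pow_card_eq_one'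
      exact congrArg Subtype.val h1
    let β : ((i : Fin n) → ZMod (2 ^ a i)) ≃+ ((i : Fin n) → ZMod (2 ^ a i)) :=
      { toFun := fun v => Multiplicative.toAdd (e (α (e.symm (Multiplicative.ofAdd v))))
        invFun := fun v => Multiplicative.toAdd (e (α⁻¹ (e.symm (Multiplicative.ofAdd v))))
        left_inv := fun v => by simp
        right_inv := fun v => by simp
        map_add' := fun v w => by
          have : Multiplicative.ofAdd (v + w) = Multiplicative.ofAdd v * Multiplicative.ofAdd w := rfl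
          rw [this, map_mul, map_mul, map_mul]
          rfl }
    have hit : ∀ (k : ℕ) (v), β^[k] v = Multiplicative.toAdd (e ((α ^ k) (e.symm (Multiplicative.ofAdd v)))) := by
      intro k v
      induction k with
      | zero => simp
      | succ k ih =>
        rw [Function.iterate_succ_apply', ih]
        show Multiplicative.toAdd (e (α (e.symm (Multiplicative.ofAdd (Multiplicative.toAdd _))))) = _
        simp [pow_succ']
    have hβ : ∀ v, β^[Nat.card (F.autGroup S)] v = v := by
      intro v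
      rw [hit, hαm]
      simp
    have h2 := fixed_of_odd β ha1 ha.injective hodd hβ (Multiplicative.toAdd (e s))
    have h3 : Multiplicative.toAdd (e (α s)) = Multiplicative.toAdd (e s) := by
      have : β (Multiplicative.toAdd (e s)) = Multiplicative.toAdd (e (α s)) := by
        show Multiplicative.toAdd (e (α (e.symm (Multiplicative.ofAdd (Multiplicative.toAdd (e s)))))) = _
        simp
      rw [← this, h2]
    exact e.injective (Multiplicative.toAdd.injective h3)
  ext φ
  constructor
  · intro hφ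
    have hPS := source_le F hφ
    obtain ⟨α, hα, he⟩ := exists_ext_abelian hS F hF hab hφ
    refine ⟨hPS, 1, S.one_mem, fun x => ?_⟩
    rw [← he x, htriv α hα]
    simp
  · rintro ⟨hP, g, hg, he⟩
    have h2 : φ = conjHom P g := by
      ext x
      exact he x
    rw [h2]
    exact F.conj_mem hP hg

end CfsgLib.Fusion
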