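import Cfsg.Agent.Lib.Fusion.Factor

/-! Products of fusion systems. -/

set_option autoImplicit false

namespace CfsgLib.Fusion

open Subgroup Cfsg Cfsg.FusionSystem

variable {Ω₁ Ω₂ : Type*} [Group Ω₁] [Group Ω₂] {S₁ : Subgroup Ω₁} {S₂ : Subgroup Ω₂}

theorem fst_mem (P : Subgroup (Ω₁ × Ω₂)) (x : P) : (x : Ω₁ × Ω₂).1 ∈ P.map (MonoidHom.fst Ω₁ Ω₂) :=
  ⟨x, x.2, rfl⟩

theorem snd_mem (P : Subgroup (Ω₁ × Ω₂)) (x : P) : (x : Ω₁ × Ω₂).2 ∈ P.map (MonoidHom.snd Ω₁ Ω₂) :=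
  ⟨x, x.2, rfl⟩

/-- **S5136**: the direct product. -/
def productSystem (F₁ : FusionSystem S₁) (F₂ : FusionSystem S₂) : FusionSystem (S₁.prod S₂) where
  Hom P := {φ | P ≤ S₁.prod S₂ ∧
      ∃ φ₁ ∈ F₁.Hom (P.map (MonoidHom.fst Ω₁ Ω₂)), ∃ φ₂ ∈ F₂.Hom (P.map (MonoidHom.snd Ω₁ Ω₂)),
        ∀ (x : P) (h₁ : (x : Ω₁ × Ω₂).1 ∈ P.map (MonoidHom.fst Ω₁ Ω₂))
          (h₂ : (x : Ω₁ × Ω₂).2 ∈ P.map (MonoidHom.snd Ω₁ Ω₂)),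
          φ x = (φ₁ ⟨(x : Ω₁ × Ω₂).1, h₁⟩, φ₂ ⟨(x : Ω₁ × Ω₂).2, h₂⟩)}
  le_of_mem := by
    rintro P φ ⟨hP, φ₁, hφ₁, φ₂, hφ₂, h⟩
    refine ⟨hP, fun x => ?_⟩
    rw [h x (fst_mem P x) (snd_mem P x)]
    exact ⟨(F₁.le_of_mem hφ₁).2 _, (F₂.le_of_mem hφ₂).2 _⟩
  injective_of_mem := by
    rintro P φ ⟨hP, φ₁, hφ₁, φ₂, hφ₂, h⟩ x y hxy
    rw [h x (fst_mem P x) (snd_mem P x), h y (fst_mem P y) (snd_mem P y)] at hxy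
    have h1 := F₁.injective_of_mem hφ₁ (congrArg Prod.fst hxy)
    have h2 := F₂.injective_of_mem hφ₂ (congrArg Prod.snd hxy)
    apply Subtype.ext
    exact Prod.ext (congrArg (fun z : ↥(P.map (MonoidHom.fst Ω₁ Ω₂)) => (z : Ω₁)) h1)
      (congrArg (fun z : ↥(P.map (MonoidHom.snd Ω₁ Ω₂)) => (z : Ω₂)) h2)
  conj_mem := by
    intro P g hP hg
    have hP₁ : P.map (MonoidHom.fst Ω₁ Ω₂) ≤ S₁ := by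
      rintro _ ⟨x, hx, rfl⟩
      exact (hP hx).1
    have hP₂ : P.map (MonoidHom.snd Ω₁ Ω₂) ≤ S₂ := by
      rintro _ ⟨x, hx, rfl⟩
      exact (hP hx).2
    exact ⟨hP, conjHom _ g.1, F₁.conj_mem hP₁ hg.1, conjHom _ g.2, F₂.conj_mem hP₂ hg.2, fun x h₁ h₂ => rfl⟩
  comp_mem := by
    rintro P Q φ ψ ⟨hP, φ₁, hφ₁, φ₂, hφ₂, h⟩ ⟨hQ, ψ₁, hψ₁, ψ₂, hψ₂, h'⟩ hPQ
    have e₁ : ∀ x : P, (φ x).1 = φ₁ ⟨(x : Ω₁ × Ω₂).1, fst_mem P x⟩ := fun x => by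
      rw [h x (fst_mem P x) (snd_mem P x)]
    have e₂ : ∀ x : P, (φ x).2 = φ₂ ⟨(x : Ω₁ × Ω₂).2, snd_mem P x⟩ := fun x => by
      rw [h x (fst_mem P x) (snd_mem P x)]
    have hv₁ : ∀ x : ↥(P.map (MonoidHom.fst Ω₁ Ω₂)), φ₁ x ∈ Q.map (MonoidHom.fst Ω₁ Ω₂) := by
      rintro ⟨_, x, hx, rfl⟩
      refine ⟨φ ⟨x, hx⟩, hPQ _, ?_⟩
      exact e₁ ⟨x, hx⟩
    have hv₂ : ∀ x : ↥(P.map (MonoidHom.snd Ω₁ Ω₂)), φ₂ x ∈ Q.map (MonoidHom.snd Ω₁ Ω₂) := by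
      rintro ⟨_, x, hx, rfl⟩
      refine ⟨φ ⟨x, hx⟩, hPQ _, ?_⟩
      exact e₂ ⟨x, hx⟩
    refine ⟨hP, _, F₁.comp_mem hφ₁ hψ₁ hv₁, _, F₂.comp_mem hφ₂ hψ₂ hv₂, fun x h₁ h₂ => ?_⟩
    show ψ ⟨φ x, hPQ x⟩ = _
    rw [h' ⟨φ x, hPQ x⟩ (fst_mem Q _) (snd_mem Q _)]
    apply Prod.ext
    · show ψ₁ _ = ψ₁ _
      congr 1
      exact Subtype.ext (e₁ x)
    · show ψ₂ _ = ψ₂ _
      congr 1
      exact Subtype.ext (e₂ x)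
  inv_mem := by
    rintro P φ ⟨hP, φ₁, hφ₁, φ₂, hφ₂, h⟩
    obtain ⟨ξ₁, hξ₁, hξ₁e⟩ := F₁.inv_mem hφ₁
    obtain ⟨ξ₂, hξ₂, hξ₂e⟩ := F₂.inv_mem hφ₂
    have e₁ : ∀ x : P, (φ x).1 = φ₁ ⟨(x : Ω₁ × Ω₂).1, fst_mem P x⟩ := fun x => by
      rw [h x (fst_mem P x) (snd_mem P x)]
    have e₂ : ∀ x : P, (φ x).2 = φ₂ ⟨(x : Ω₁ × Ω₂).2, snd_mem P x⟩ := fun x => by
      rw [h x (fst_mem P x) (snd_mem P x)]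
    have hr₁ : φ.range.map (MonoidHom.fst Ω₁ Ω₂) ≤ φ₁.range := by
      rintro _ ⟨_, ⟨x, rfl⟩, rfl⟩
      exact ⟨_, (e₁ x).symm⟩
    have hr₂ : φ.range.map (MonoidHom.snd Ω₁ Ω₂) ≤ φ₂.range := by
      rintro _ ⟨_, ⟨x, rfl⟩, rfl⟩
      exact ⟨_, (e₂ x).symm⟩
    let ψ : φ.range →* Ω₁ × Ω₂ :=
      ((ξ₁.comp (Subgroup.inclusion hr₁)).comp ((MonoidHom.fst Ω₁ Ω₂).subgroupMap φ.range)).prod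
        ((ξ₂.comp (Subgroup.inclusion hr₂)).comp ((MonoidHom.snd Ω₁ Ω₂).subgroupMap φ.range))
    refine ⟨ψ, ⟨?_, _, restrict_mem F₁ hξ₁ hr₁, _, restrict_mem F₂ hξ₂ hr₂, fun x h₁ h₂ => rfl⟩, fun x => ?_⟩
    · rintro _ ⟨x, rfl⟩
      have := ((h x (fst_mem P x) (snd_mem P x)))
      rw [this]
      exact ⟨(F₁.le_of_mem hφ₁).2 _, (F₂.le_of_mem hφ₂).2 _⟩
    · apply Prod.ext
      · have h1 := hξ₁e ⟨(x : Ω₁ × Ω₂).1, fst_mem P x⟩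
        refine Eq.trans ?_ h1
        show ξ₁ _ = ξ₁ _
        congr 1
        exact Subtype.ext (e₁ x)
      · have h1 := hξ₂e ⟨(x : Ω₁ × Ω₂).2, snd_mem P x⟩
        refine Eq.trans ?_ h1
        show ξ₂ _ = ξ₂ _
        congr 1
        exact Subtype.ext (e₂ x)

end CfsgLib.Fusion
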