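import Cfsg.Agent.Lib.Fusion.GroupSat
import Cfsg.Agent.Lib.Fusion.Simple
import Cfsg.Prelude.Def_LocalEven

/-! `p`-stability for fusion systems. -/

set_option autoImplicit false

namespace CfsgLib.Fusion

open Subgroup Cfsg Cfsg.FusionSystem
open scoped commutatorElement

section equiv_lemmas

variable {G : Type*} [Group G] {p : ℕ} [Fact p.Prime]

/-- `N(Q)/C(Q)` is `Aut_G(Q)`. -/
theorem quadratic_iff_commutator {Q : Subgroup G} {g : G} (hg : g ∈ normalizer (Q : Set G)) :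
    (∀ a : Q, (conjAut hg a⁻¹) * a * (conjAut hg a⁻¹) * (conjAut hg (conjAut hg a)) = 1) ↔
      ⁅⁅Q, Subgroup.zpowers g⁆, Subgroup.zpowers g⁆ = ⊥ := by
  have hd : (∀ a : Q, (conjAut hg a⁻¹) * a * (conjAut hg a⁻¹) * (conjAut hg (conjAut hg a)) = 1) ↔
      ∀ a ∈ Q, g * ((a⁻¹ : G) * (g * a * g⁻¹)) * g⁻¹ = (a⁻¹ : G) * (g * a * g⁻¹) := by
    constructor
    · intro h a ha
      have h1 := congrArg Subtype.val (h ⟨a, ha⟩)
      have h2 : g * (⟨a, ha⟩ : Q)⁻¹.1 * g⁻¹ * a * (g * (⟨a, ha⟩ : Q)⁻¹.1 * g⁻¹) * (g * (g * a * g⁻¹) * g⁻¹) = 1 := h1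
      have h3 : ((⟨a, ha⟩ : Q)⁻¹.1 : G) = a⁻¹ := rfl
      rw [h3] at h2
      have h4 : g * ((a⁻¹ : G) * (g * a * g⁻¹)) * g⁻¹ =
          (g * a⁻¹ * g⁻¹ * a)⁻¹ * (g * a⁻¹ * g⁻¹ * a * (g * a⁻¹ * g⁻¹) * (g * (g * a * g⁻¹) * g⁻¹)) := by group
      rw [h4, h2]
      group
    · intro h a
      apply Subtype.ext
      have h1 := h a a.2
      show g * (a : G)⁻¹ * g⁻¹ * a * (g * (a : G)⁻¹ * g⁻¹) * (g * (g * a * g⁻¹) * g⁻¹) = 1
      have h4 : g * (a : G)⁻¹ * g⁻¹ * a * (g * (a : G)⁻¹ * g⁻¹) * (g * (g * a * g⁻¹) * g⁻¹) =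
          (g * (a : G)⁻¹ * g⁻¹ * a) * (g * (((a : G)⁻¹) * (g * a * g⁻¹)) * g⁻¹) := by group
      rw [h4, h1]
      group
  rw [hd]
  constructor
  · intro h
    rw [commutator_eq_bot_iff_le_centralizer, commutator_le]
    intro a ha z hz
    obtain ⟨i, rfl⟩ := hz
    have h1 := h a⁻¹ (inv_mem ha)
    rw [inv_inv] at h1
    set d := a * (g * a⁻¹ * g⁻¹) with hd'
    have hcomm : Commute g d := by
      show g * d = d * g
      calc g * d = (g * d * g⁻¹) * g := by group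
        _ = d * g := by rw [h1]
    have e1 : a * g * a⁻¹ = d * g := by rw [hd']; group
    have e2 : a * g ^ i * a⁻¹ = d ^ i * g ^ i := by
      rw [← conj_zpow, e1, (hcomm.symm).mul_zpow]
    have e3 : ⁅a, g ^ i⁆ = d ^ i := by
      rw [commutatorElement_def, e2]; group
    rw [e3, mem_centralizer_iff]
    rintro _ ⟨j, rfl⟩
    exact ((hcomm.zpow_zpow j i)).eq
  · intro h a ha
    have h1 : ⁅a⁻¹, g⁆ ∈ ⁅Q, Subgroup.zpowers g⁆ := commutator_mem_commutator (inv_mem ha) (Subgroup.mem_zpowers g)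
    have h2 : ⁅⁅a⁻¹, g⁆, g⁆ ∈ ⁅⁅Q, Subgroup.zpowers g⁆, Subgroup.zpowers g⁆ :=
      commutator_mem_commutator h1 (Subgroup.mem_zpowers g)
    rw [h] at h2
    have h3 : ⁅⁅a⁻¹, g⁆, g⁆ = 1 := h2
    have h4 : ⁅a⁻¹, g⁆ = a⁻¹ * (g * a * g⁻¹) := by
      rw [commutatorElement_def]; group
    rw [h4, commutatorElement_def] at h3
    have h5 := mul_inv_eq_one.mp h3
    -- `d * g * d⁻¹ = g`, hence `g * d * g⁻¹ = d`
    set d := a⁻¹ * (g * a * g⁻¹) with hd'
    have h6 : d * g = g * d := mul_inv_eq_iff_eq_mul.mp h5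
    calc g * d * g⁻¹ = d * g * g⁻¹ := by rw [h6]
      _ = d := by group

theorem mem_pCore_map_iff {A B : Type*} [Group A] [Group B] (τ : A ≃* B) (X : Subgroup A) (Y : Subgroup B)
    (h : X.map (τ : A →* B) = Y) (a : A) :
    a ∈ (pCore p X).map X.subtype ↔ τ a ∈ (pCore p Y).map Y.subtype := by
  let e : X ≃* Y := (τ.subgroupMap X).trans (MulEquiv.subgroupCongr h)
  have he : ∀ x : X, ((e x : Y) : B) = τ x := fun _ => rfl
  have h1 := CfsgLib.PLocal.pCore_map_equiv (p := p) e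
  constructor
  · rintro ⟨x, hx, rfl⟩
    refine ⟨e x, ?_, he x⟩
    rw [← h1]
    exact ⟨x, hx, rfl⟩
  · rintro ⟨y, hy, hye⟩
    rw [← h1] at hy
    obtain ⟨x, hx, rfl⟩ := hy
    refine ⟨x, hx, ?_⟩
    exact τ.injective ((he x).trans hye)

theorem mk_mem_pCore_iff {Q : Subgroup G} {g : G} (hg : g ∈ normalizer (Q : Set G)) :
    (QuotientGroup.mk (s := (centralizer (Q : Set G)).subgroupOf (normalizer (Q : Set G)))
        (⟨g, hg⟩ : ↥(normalizer (Q : Set G)))) ∈
      pCore p (↥(normalizer (Q : Set G)) ⧸ (centralizer (Q : Set G)).subgroupOf (normalizer (Q : Set G))) ↔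
    conjAut hg ∈ (pCore p (autInducedBy ⊤ Q)).map (autInducedBy ⊤ Q).subtype := by
  have hker : (centralizer (Q : Set G)).subgroupOf (normalizer (Q : Set G)) = Q.normalizerMonoidHom.ker :=
    Q.normalizerMonoidHom_ker.symm
  have hrange : Q.normalizerMonoidHom.range = autInducedBy ⊤ Q := by
    apply le_antisymm
    · rintro _ ⟨h, rfl⟩
      exact conjAut_mem_autInducedBy h.2 (Subgroup.mem_top _)
    · intro α hα
      obtain ⟨k, -, hk⟩ := mem_autInducedBy.mp hα
      refine ⟨⟨k, normalizer_of_autInducedBy hk⟩, ?_⟩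
      ext x
      exact (hk x).symm
  let e : (↥(normalizer (Q : Set G)) ⧸ (centralizer (Q : Set G)).subgroupOf (normalizer (Q : Set G))) ≃*
      autInducedBy ⊤ Q :=
    (QuotientGroup.quotientMulEquivOfEq hker).trans
      ((QuotientGroup.quotientKerEquivRange Q.normalizerMonoidHom).trans (MulEquiv.subgroupCongr hrange))
  have he : (e (QuotientGroup.mk ⟨g, hg⟩) : MulAut Q) = conjAut hg := rfl
  have h1 := CfsgLib.PLocal.pCore_map_equiv (p := p) e
  constructor
  · intro hx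
    refine ⟨e (QuotientGroup.mk ⟨g, hg⟩), ?_, he⟩
    rw [← h1]
    exact ⟨_, hx, rfl⟩
  · rintro ⟨y, hy, hye⟩
    rw [← h1] at hy
    obtain ⟨x, hx, rfl⟩ := hy
    have : x = QuotientGroup.mk ⟨g, hg⟩ := by
      apply e.injective
      apply Subtype.ext
      rw [he]
      exact hye
    rwa [← this]

/-- quadraticity is transported by isomorphisms -/
theorem quad_congr {A B : Type*} [Group A] [Group B] (e : A ≃* B) {χ : MulAut A}
    (h : ∀ a : A, (χ a⁻¹) * a * (χ a⁻¹) * (χ (χ a)) = 1) (b : B) :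
    (MulAut.congr e χ b⁻¹) * b * (MulAut.congr e χ b⁻¹) * (MulAut.congr e χ (MulAut.congr e χ b)) = 1 := by
  obtain ⟨a, rfl⟩ := e.surjective b
  have h1 : ∀ a' : A, MulAut.congr e χ (e a') = e (χ a') := by
    intro a'
    show e (χ (e.symm (e a'))) = _
    rw [e.symm_apply_apply]
  rw [← map_inv, h1, h1, h1]
  rw [← map_mul, ← map_mul, ← map_mul, h a, map_one]

/-- The isomorphism of `Q` with its conjugate. -/
noncomputable def conjIso (Q : Subgroup G) (z : G) : Q ≃* ↥(Q.map (MulAut.conj z).toMonoidHom) :=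
  Q.equivMapOfInjective (MulAut.conj z).toMonoidHom (MulAut.conj z).injective

theorem conjIso_apply (Q : Subgroup G) (z : G) (x : Q) : ((conjIso Q z x : ↥(Q.map (MulAut.conj z).toMonoidHom)) : G) = z * x * z⁻¹ := rfl

theorem congr_conjAut {Q : Subgroup G} {h : G} (hh : h ∈ normalizer (Q : Set G)) (z : G) (x : Q) :
    ((MulAut.congr (conjIso Q z) (conjAut hh) (conjIso Q z x) : ↥(Q.map (MulAut.conj z).toMonoidHom)) : G) =
      (z * h * z⁻¹) * (conjIso Q z x : ↥(Q.map (MulAut.conj z).toMonoidHom)) * (z * h * z⁻¹)⁻¹ := by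
  have h1 : MulAut.congr (conjIso Q z) (conjAut hh) (conjIso Q z x) = conjIso Q z (conjAut hh x) := by
    show (conjIso Q z) ((conjAut hh) ((conjIso Q z).symm ((conjIso Q z) x))) = _
    rw [MulEquiv.symm_apply_apply]
  rw [h1]
  show z * (h * (x : G) * h⁻¹) * z⁻¹ = (z * h * z⁻¹) * (z * x * z⁻¹) * (z * h * z⁻¹)⁻¹
  group

theorem congr_autInducedBy (Q : Subgroup G) (z : G) :
    (autInducedBy ⊤ Q).map ((MulAut.congr (conjIso Q z) : MulAut Q ≃* _) : MulAut Q →* _) =
      autInducedBy ⊤ (Q.map (MulAut.conj z).toMonoidHom) := by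
  apply le_antisymm
  · rintro _ ⟨α, hα, rfl⟩
    obtain ⟨h, -, hh⟩ := mem_autInducedBy.mp hα
    have hhN := normalizer_of_autInducedBy hh
    have hα' : α = conjAut hhN := by
      ext x
      exact hh x
    refine mem_autInducedBy.mpr ⟨z * h * z⁻¹, Subgroup.mem_top _, fun y => ?_⟩
    obtain ⟨x, rfl⟩ := (conjIso Q z).surjective y
    rw [hα']
    exact congr_conjAut hhN z x
  · intro β hβ
    obtain ⟨h, -, hh⟩ := mem_autInducedBy.mp hβ
    have hhN := normalizer_of_autInducedBy hh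
    have hh' : z⁻¹ * h * z ∈ normalizer (Q : Set G) := conj_mem_normalizer_of hhN
    refine ⟨conjAut hh', conjAut_mem_autInducedBy hh' (Subgroup.mem_top _), ?_⟩
    ext y
    obtain ⟨x, rfl⟩ := (conjIso Q z).surjective y
    have h2 := congr_conjAut hh' z x
    have h3 := hh (conjIso Q z x)
    refine h2.trans ?_
    rw [h3]
    have e1 : z * (z⁻¹ * h * z) * z⁻¹ = h := by group
    rw [e1]

/-- **S5246**. -/
theorem normalizerPStable_iff [Finite G] (P : Sylow p G) :
    IsNormalizerPStable p G ↔ (∀ Q : Subgroup G, (groupFusionSystem (P : Subgroup G)).IsFullyNormalized Q →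
      ∀ χ : MulAut ↥Q, χ ∈ (groupFusionSystem (P : Subgroup G)).autGroup Q →
        (∀ a : ↥Q, (χ a⁻¹) * a * (χ a⁻¹) * (χ (χ a)) = 1) →
        χ ∈ ((pCore p ↥((groupFusionSystem (P : Subgroup G)).autGroup Q)).map
          ((groupFusionSystem (P : Subgroup G)).autGroup Q).subtype : Subgroup (MulAut ↥Q))) := by
  constructor
  · intro hst Q hQ χ hχ hquad
    have hQS := hQ.1
    rw [groupSys_autGroup hQS] at hχ ⊢
    obtain ⟨g, -, hg⟩ := mem_autInducedBy.mp hχ
    have hgN := normalizer_of_autInducedBy hg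
    have hα : χ = conjAut hgN := by
      ext x
      exact hg x
    subst hα
    have hc := (quadratic_iff_commutator hgN).mp hquad
    exact (mk_mem_pCore_iff hgN).mp (hst Q (P.2.to_le hQS) g hgN hc)
  · intro hst Q hQp g hg hc
    obtain ⟨x, hx⟩ := exists_conj_le_sylow P hQp
    obtain ⟨Q₁, hQ₁, hQ₁n⟩ := exists_fullyNormalized_conj (groupFusionSystem (P : Subgroup G)) hx
    obtain ⟨-, hQ₁S, y, hy⟩ := groupSys_isConj.mp hQ₁
    have hz : Q.map (MulAut.conj (y * x)).toMonoidHom = Q₁ := by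
      rw [← hy, Subgroup.map_map]
      congr 1
      ext w
      simp [MulAut.conj_apply, mul_assoc]
    subst hz
    set z := y * x with hzdef
    have hquad := (quadratic_iff_commutator hg).mpr hc
    have hm : conjAut hg ∈ (pCore p (autInducedBy ⊤ Q)).map (autInducedBy ⊤ Q).subtype := by
      rw [mem_pCore_map_iff (MulAut.congr (conjIso Q z)) _ _ (congr_autInducedBy Q z)]
      have hχ : MulAut.congr (conjIso Q z) (conjAut hg) ∈
          (groupFusionSystem (P : Subgroup G)).autGroup (Q.map (MulAut.conj z).toMonoidHom) := by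
        rw [groupSys_autGroup hQ₁S, ← congr_autInducedBy Q z]
        exact ⟨_, conjAut_mem_autInducedBy hg (Subgroup.mem_top _), rfl⟩
      have h1 := hst _ hQ₁n _ hχ (quad_congr _ hquad)
      rwa [groupSys_autGroup hQ₁S] at h1
    exact (mk_mem_pCore_iff hg).mpr hm

end equiv_lemmas

end CfsgLib.Fusion
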