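import Cfsg.Agent.Lib.Fusion.Stable
import Cfsg.Agent.Lib.PLocal.Core

/-! `p`-stability for fusion systems: reduction to normalizers. -/

set_option autoImplicit false

namespace CfsgLib.Fusion

open Subgroup Cfsg Cfsg.FusionSystem

variable {Ω : Type*} [Group Ω] {S : Subgroup Ω} [Finite S] {p : ℕ} [Fact p.Prime]

omit [Finite S] [Fact p.Prime] in
theorem congr_symm_mem_autGroup (F : FusionSystem S) {P : Subgroup Ω} {φ : P →* Ω} (hφ : φ ∈ F.Hom P)
    {β : MulAut φ.range} (hβ : β ∈ F.autGroup φ.range) : (MulAut.congr (isoOfHom F hφ)).symm β ∈ F.autGroup P := by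
  have hP := source_le F hφ
  have hr := range_le F hφ
  rw [mem_autGroup_iff F hP]
  obtain ⟨ξ, hξ, hξe⟩ := F.inv_mem hφ
  have hβ' := (mem_autGroup_iff F hr).mp hβ
  have h1 : ∀ x : P, φ x ∈ φ.range := fun x => ⟨x, rfl⟩
  have h2 := F.comp_mem hφ hβ' h1
  have h3 : ∀ x : P, (φ.range.subtype.comp β.toMonoidHom).comp (φ.codRestrict φ.range h1) x ∈ φ.range :=
    fun x => (β _).2
  have h4 := F.comp_mem h2 hξ h3
  have : P.subtype.comp ((MulAut.congr (isoOfHom F hφ)).symm β).toMonoidHom =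
      ξ.comp (((φ.range.subtype.comp β.toMonoidHom).comp (φ.codRestrict φ.range h1)).codRestrict φ.range h3) := by
    ext x
    set x' := (MulAut.congr (isoOfHom F hφ)).symm β x with hx'
    have h5 : MulAut.congr (isoOfHom F hφ) ((MulAut.congr (isoOfHom F hφ)).symm β) = β :=
      (MulAut.congr (isoOfHom F hφ)).apply_symm_apply β
    have h6 := congr_apply F hφ ((MulAut.congr (isoOfHom F hφ)).symm β) x
    rw [h5] at h6
    have h7 := hξe x'
    have h8 : (⟨φ x', ⟨x', rfl⟩⟩ : φ.range) = β ⟨φ x, ⟨x, rfl⟩⟩ := h6.symm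
    rw [h8] at h7
    exact h7.symm
  rw [this]; exact h4

omit [Finite S] [Fact p.Prime] in
theorem map_congr_autGroup (F : FusionSystem S) {P : Subgroup Ω} {φ : P →* Ω} (hφ : φ ∈ F.Hom P) :
    (F.autGroup P).map ((MulAut.congr (isoOfHom F hφ) : MulAut P ≃* _) : MulAut P →* _) = F.autGroup φ.range := by
  apply le_antisymm
  · rintro _ ⟨α, hα, rfl⟩
    exact congr_mem_autGroup F hφ hα
  · intro β hβ
    exact ⟨_, congr_symm_mem_autGroup F hφ hβ, (MulAut.congr (isoOfHom F hφ)).apply_symm_apply β⟩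

theorem pCore_inf_mem {A : Type*} [Group A] [Finite A] {X Y : Subgroup A} (hYX : Y ≤ X) {χ : A}
    (h1 : χ ∈ (pCore p X).map X.subtype) (h2 : χ ∈ Y) : χ ∈ (pCore p Y).map Y.subtype := by
  set K : Subgroup A := (pCore p X).map X.subtype with hK
  have hKn : (K.subgroupOf Y).Normal := by
    refine ⟨fun n hn y => ?_⟩
    rw [mem_subgroupOf] at hn ⊢
    obtain ⟨k, hk, hke⟩ := hn
    have hnor : (pCore p X).Normal := CfsgLib.PLocal.pCore_normal'
    refine ⟨⟨y, hYX y.2⟩ * k * ⟨y, hYX y.2⟩⁻¹, hnor.conj_mem k hk _, ?_⟩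
    simp [hke.symm]
  have hKp : IsPGroup p K := IsPGroup.map CfsgLib.PLocal.pCore_isPGroup _
  have hKY : IsPGroup p (K.subgroupOf Y) := hKp.comap_of_injective Y.subtype Y.subtype_injective
  have h3 := CfsgLib.PLocal.le_pCore_of_normal _ hKn hKY
  exact ⟨⟨χ, h2⟩, h3 (mem_subgroupOf.mpr h1), rfl⟩

theorem quad_pow {A : Type*} [Group A] {χ : MulAut A} (h : ∀ a : A, (χ a⁻¹) * a * (χ a⁻¹) * (χ (χ a)) = 1)
    (n : ℕ) (a : A) : (χ ^ n) a = a * (a⁻¹ * χ a) ^ n := by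
  have hfix : χ (a⁻¹ * χ a) = a⁻¹ * χ a := by
    have h1 := h a
    rw [map_mul, map_inv] at *
    have h2 : (χ a)⁻¹ * a * (χ a)⁻¹ * χ (χ a) = 1 := h1
    calc (χ a)⁻¹ * χ (χ a) = a⁻¹ * χ a * ((χ a)⁻¹ * a * (χ a)⁻¹ * χ (χ a)) := by group
      _ = a⁻¹ * χ a := by rw [h2, mul_one]
  induction n with
  | zero => simp
  | succ n ih =>
    rw [pow_succ', MulAut.mul_apply, ih, map_mul, map_pow, hfix, pow_succ', ← mul_assoc, mul_inv_cancel_left]

theorem quad_pElement {A : Type*} [Group A] [Finite A] (hA : IsPGroup p A) {χ : MulAut A}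
    (h : ∀ a : A, (χ a⁻¹) * a * (χ a⁻¹) * (χ (χ a)) = 1) : ∃ k : ℕ, χ ^ p ^ k = 1 := by
  obtain ⟨k, hk⟩ := IsPGroup.iff_card.mp hA
  refine ⟨k, ?_⟩
  ext a
  rw [quad_pow h, ← hk, pow_card_eq_one']
  simp

theorem quad_mem_pCore_of_cyclic {A : Type*} [Group A] [Finite A] [IsCyclic A] (hA : IsPGroup p A) {χ : MulAut A}
    (h : ∀ a : A, (χ a⁻¹) * a * (χ a⁻¹) * (χ (χ a)) = 1) (X : Subgroup (MulAut A)) (hχ : χ ∈ X) :
    χ ∈ (pCore p X).map X.subtype := by
  have : Finite (MulAut A) := finite_mulAut A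
  have hcomm : ∀ α β : MulAut A, α * β = β * α := by
    intro α β
    obtain ⟨a, ha⟩ := MonoidHom.map_cyclic α.toMonoidHom
    obtain ⟨b, hb⟩ := MonoidHom.map_cyclic β.toMonoidHom
    ext x
    have ha' : ∀ y, α y = y ^ a := ha
    have hb' : ∀ y, β y = y ^ b := hb
    show α (β x) = β (α x)
    rw [ha', hb', ha', hb', ← zpow_mul, ← zpow_mul, mul_comm]
  obtain ⟨k, hk⟩ := quad_pElement hA h
  let K : Subgroup X := (Subgroup.zpowers χ).subgroupOf X
  have hKn : K.Normal := by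
    refine ⟨fun n hn g => ?_⟩
    have h1 : g * n * g⁻¹ = n := by
      apply Subtype.ext
      show (g : MulAut A) * n * (g : MulAut A)⁻¹ = n
      rw [hcomm (g : MulAut A) n]
      group
    rw [h1]; exact hn
  have hKp : IsPGroup p K := by
    have h2 : IsPGroup p (Subgroup.zpowers χ) := by
      rintro ⟨_, m, rfl⟩
      refine ⟨k, Subtype.ext ?_⟩
      show (χ ^ m) ^ p ^ k = 1
      rw [← zpow_natCast, ← zpow_mul, mul_comm, zpow_mul, zpow_natCast, hk, one_zpow]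
    exact h2.comap_of_injective X.subtype X.subtype_injective
  have h3 := CfsgLib.PLocal.le_pCore_of_normal K hKn hKp
  exact ⟨⟨χ, hχ⟩, h3 (mem_subgroupOf.mpr (Subgroup.mem_zpowers χ)), rfl⟩

/-- stability at fully normalized subgroups gives stability everywhere -/
theorem stable_at_all (F : FusionSystem S)
    (hst : ∀ Q : Subgroup Ω, F.IsFullyNormalized Q → ∀ χ : MulAut ↥Q, χ ∈ F.autGroup Q →
      (∀ a : ↥Q, (χ a⁻¹) * a * (χ a⁻¹) * (χ (χ a)) = 1) →
      χ ∈ ((pCore p ↥(F.autGroup Q)).map (F.autGroup Q).subtype : Subgroup (MulAut ↥Q)))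
    {Q : Subgroup Ω} (hQ : Q ≤ S) {χ : MulAut ↥Q} (hχ : χ ∈ F.autGroup Q)
    (hq : ∀ a : ↥Q, (χ a⁻¹) * a * (χ a⁻¹) * (χ (χ a)) = 1) :
    χ ∈ ((pCore p ↥(F.autGroup Q)).map (F.autGroup Q).subtype : Subgroup (MulAut ↥Q)) := by
  obtain ⟨Q₁, ⟨φ, hφ, rfl⟩, hQ₁⟩ := exists_fullyNormalized_conj F hQ
  rw [mem_pCore_map_iff (MulAut.congr (isoOfHom F hφ)) _ _ (map_congr_autGroup F hφ)]
  exact hst _ hQ₁ _ (congr_mem_autGroup F hφ hχ) (quad_congr _ hq)

/-- **S5247**. -/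
theorem pStable_iff_normalizers (hS : IsPGroup p S) (F : FusionSystem S) :
    (∀ Q : Subgroup Ω, F.IsFullyNormalized Q → ∀ χ : MulAut ↥Q, χ ∈ F.autGroup Q →
        (∀ a : ↥Q, (χ a⁻¹) * a * (χ a⁻¹) * (χ (χ a)) = 1) →
        χ ∈ ((pCore p ↥(F.autGroup Q)).map (F.autGroup Q).subtype : Subgroup (MulAut ↥Q))) ↔
      ∀ R : Subgroup Ω, F.IsFullyNormalized R → ¬ IsCyclic ↥R →
        ∀ N : FusionSystem (normalizerIn S R), F.IsNormalizerSystem R N →
          (∀ Q : Subgroup Ω, N.IsFullyNormalized Q → ∀ χ : MulAut ↥Q, χ ∈ N.autGroup Q →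
            (∀ a : ↥Q, (χ a⁻¹) * a * (χ a⁻¹) * (χ (χ a)) = 1) →
            χ ∈ ((pCore p ↥(N.autGroup Q)).map (N.autGroup Q).subtype : Subgroup (MulAut ↥Q))) := by
  constructor
  · intro hst R _ _ N hN Q hQ χ hχ hq
    have hQS : Q ≤ S := hQ.1.trans inf_le_left
    have : Finite Q := finite_of_le hQS
    have : Finite (MulAut Q) := finite_mulAut _
    have hle : N.autGroup Q ≤ F.autGroup Q := by
      refine (closure_le _).mpr fun α hα => subset_closure ?_
      have h1 : Q.subtype.comp α.toMonoidHom ∈ N.Hom Q := hα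
      rw [hN Q] at h1
      exact h1.1
    exact pCore_inf_mem hle (stable_at_all F hst hQS (hle hχ) hq) hχ
  · intro hst Q hQ χ hχ hq
    have hQS := hQ.1
    have : Finite Q := finite_of_le hQS
    by_cases hc : IsCyclic Q
    · exact quad_mem_pCore_of_cyclic (hS.to_le hQS) hq _ hχ
    have hQN : Q ≤ normalizerIn S Q := le_inf hQS Subgroup.le_normalizer
    let N := normalizerSystem F Q hQS
    have hN : F.IsNormalizerSystem Q N := fun P => rfl
    have hNFn : N.IsFullyNormalized Q := by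
      refine ⟨hQN, fun Q' hQ' => ?_⟩
      obtain ⟨φ, hφ, rfl⟩ := hQ'
      obtain ⟨-, -, -, ψ, -, h1, h2⟩ := hφ
      have hr : φ.range = Q := by
        apply le_antisymm
        · rintro _ ⟨x, rfl⟩
          rw [← h1]
          exact h2.le ⟨_, mem_subgroupOf.mpr x.2, rfl⟩
        · intro q hq'
          obtain ⟨y, hy, rfl⟩ := h2.ge hq'
          have hyQ : (y : Ω) ∈ Q := mem_subgroupOf.mp hy
          refine ⟨⟨y, hyQ⟩, ?_⟩
          rw [← h1]
          rfl
      rw [hr]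
    have heq : N.autGroup Q = F.autGroup Q := by
      ext α
      rw [mem_autGroup_iff N hQN, mem_autGroup_iff F hQS]
      constructor
      · intro h
        exact h.1
      · intro h
        refine ⟨h, hQN, fun x => hQN (α x).2, ?_⟩
        have hle : Q ⊔ Q ≤ Q := sup_le le_rfl le_rfl
        refine ⟨_, restrict_mem F h hle, fun x => rfl, ?_⟩
        apply le_antisymm
        · rintro _ ⟨x, hx, rfl⟩
          exact (α _).2
        · intro q hq'
          refine ⟨⟨(α⁻¹ ⟨q, hq'⟩ : Q), mem_sup_left (α⁻¹ ⟨q, hq'⟩).2⟩, mem_subgroupOf.mpr (α⁻¹ ⟨q, hq'⟩).2, ?_⟩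
          show ((α (α⁻¹ ⟨q, hq'⟩) : Q) : Ω) = q
          simp
    have h1 := hst Q hQ hc N hN Q hNFn χ (heq.ge hχ) hq
    rwa [heq] at h1

end CfsgLib.Fusion
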